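import Cfsg.Agent.H442.CRowJThreeB

/-!
# The row `CRow p G` of the third Janko group (helper442, S3828)
-/

set_option autoImplicit false

namespace Cfsg.Agent.H442.CRowJThree

open Subgroup Cfsg Cfsg.Agent.Lib.Cores Cfsg.Agent.H162.CCR
open Cfsg.Agent.J2Type.Model Cfsg.Agent.J2Type.CStruct Cfsg.Agent.J3Type.OneClass
open Cfsg.Agent.H102.AAJtwo Cfsg.Agent.H442.CRowTools Cfsg.Agent.H442.CRowJThreeA

section cyc

variable {G : Type*} [Group G] [Finite G] {p : ℕ} [hp : Fact p.Prime]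

omit [Finite G] hp in
/-- an element of order dividing `p` in a group of order not divisible by `p²` -/
theorem pow_eq_one_of {x : G} (h2 : ¬ p ^ 2 ∣ Nat.card G) (hx : ∃ k : ℕ, orderOf x = p ^ k) : x ^ p = 1 := by
  obtain ⟨k, hk⟩ := hx
  have h1 : k ≤ 1 := by
    by_contra h3
    exact h2 ((pow_dvd_pow p (by omega)).trans (hk ▸ orderOf_dvd_natCard x))
  rw [← orderOf_dvd_iff_pow_eq_one, hk]
  calc p ^ k ∣ p ^ 1 := pow_dvd_pow p h1
    _ = p := pow_one p

/-- **Sylow subgroups of order `p`: explicit commutators.** -/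
theorem crow_of_words (h2 : ¬ p ^ 2 ∣ Nat.card G) (h : ∃ y g : G, y ^ p = 1 ∧
    ∀ k : ℕ, 0 < k → k < p → ((y ^ k)⁻¹ * (g⁻¹ * y ^ k * g)⁻¹ * y ^ k * (g⁻¹ * y ^ k * g)) ^ p ≠ 1) : CRow p G := by
  obtain ⟨y, g, hy, hw⟩ := h
  have hpp := hp.out
  intro C hC c hc
  by_contra hc1
  have hy1 : y ≠ 1 := by
    rintro rfl
    exact hw 1 one_pos hpp.one_lt (by simp)
  have hyo : orderOf y = p := orderOf_eq_prime hy hy1
  have hi : ¬ p ∣ (zpowers y).index := by
    intro h3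
    apply h2
    have h4 := (zpowers y).card_mul_index
    rw [Nat.card_zpowers, hyo] at h4
    rw [← h4, pow_two]
    exact Nat.mul_dvd_mul_left p h3
  obtain ⟨a, ha⟩ := hC.exists_conj_mem hi hc
  obtain ⟨k, hkp, hk⟩ : ∃ k : ℕ, k < p ∧ y ^ k = a * c * a⁻¹ := by
    obtain ⟨n, hn⟩ := (isOfFinOrder_of_finite y).mem_powers_iff_mem_zpowers.2 ha
    refine ⟨n % p, Nat.mod_lt _ hpp.pos, ?_⟩
    rw [← hn]
    show y ^ (n % p) = y ^ n
    rw [← hyo, pow_mod_orderOf]
  have hk0 : 0 < k := by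
    rcases Nat.eq_zero_or_pos k with h3 | h3
    · exfalso
      rw [h3, pow_zero] at hk
      apply hc1
      have : c = a⁻¹ * (a * c * a⁻¹) * a := by group
      rw [this, ← hk]; group
    · exact h3
  have hkC : y ^ k ∈ C := by rw [hk]; exact hC.conj a c hc
  exact hw k hk0 hkp (pow_eq_one_of h2 (hC.pel _ (hC.comm_conj g hkC)))

end cyc

/-- `O₃(C(x)) ≤ ⟨x⟩` for an element `x` of order 3 commuting with an involution -/
theorem mem_zpowers_of_three {K : Type*} [Group K] [Finite K] (h : Spor.IsoJ3 K) {x : K} (hx : orderOf x = 3)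
    {t : K} (ht : orderOf t = 2) (htx : t * x = x * t) [Fact (Nat.Prime 3)] {a : centralizer ({x} : Set K)}
    (ha : a ∈ pCore 3 (centralizer ({x} : Set K))) : (a : K) ∈ zpowers x := by
  obtain ⟨hcard, hM, hone, -⟩ := Cfsg.Agent.CpAutJThree.base h
  have hp2 : Fact (Nat.Prime 2) := ⟨Nat.prime_two⟩
  have memC : ∀ a : K, a ∈ centralizer ({x} : Set K) ↔ a * x = x * a := fun a => mem_centralizer_singleton_iff
  obtain ⟨c0, hc0, ⟨s, hs, hsc⟩, hc0c⟩ := Cfsg.Agent.CpAutJThree.exc h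
  obtain ⟨g, hg⟩ := Cfsg.Agent.CpAutJThree.conj_three hM hone hc0 hx hs ht hsc htx
  have hC : Nat.card ↥(centralizer ({x} : Set K)) = 1080 := by
    rw [← Cfsg.Agent.J2Type.Cent5.card_centralizer_of_isConj (isConj_iff.2 ⟨g, hg⟩)]; exact hc0c
  let c : centralizer ({x} : Set K) := ⟨x, (memC x).2 rfl⟩
  have hc3 : orderOf c = 3 := by rw [← hx]; exact orderOf_mk _ _
  have hcc : ∀ a : centralizer ({x} : Set K), a * c = c * a := fun a => Subtype.ext ((memC a).1 a.2)
  have hZn : (zpowers c).Normal := by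
    constructor
    rintro n ⟨k, rfl⟩ g
    refine ⟨k, ?_⟩
    have h1 : Commute g c := hcc g
    have := h1.zpow_right k
    show c ^ k = g * c ^ k * g⁻¹
    rw [this.eq]; group
  have hHD8 := J3Type.Extra.hd8_quotient c hc3 hcc (Cfsg.Agent.CpAutJThree.hD_of_model hM hx)
  have hq : Nat.card (↥(centralizer ({x} : Set K)) ⧸ zpowers c) = 360 := by
    have := card_eq_card_quotient_mul_card_subgroup (zpowers c)
    rw [hC, Nat.card_zpowers, hc3] at this
    omega
  obtain ⟨s', hs'⟩ := exists_prime_orderOf_dvd_card' (G := ↥(centralizer ({x} : Set K)) ⧸ zpowers c) 2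
    (by rw [hq]; norm_num)
  have hsim := J3Type.Extra.isSimple hHD8 hs'
  have h1 : (pCore 3 (centralizer ({x} : Set K))).map (QuotientGroup.mk' (zpowers c)) ≤
      pCore 3 (↥(centralizer ({x} : Set K)) ⧸ zpowers c) :=
    le_pCore (Subgroup.Normal.map inferInstance _ (QuotientGroup.mk'_surjective _)) ((pCore_isPGroup 3).map _)
  have h0 : ¬ IsMulCommutative (↥(centralizer ({x} : Set K)) ⧸ zpowers c) := not_comm_of_card (by rw [hq]; norm_num)
  rw [pCore_eq_bot_of_simple h0 3] at h1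
  have h2 : QuotientGroup.mk' (zpowers c) a = 1 := mem_bot.1 (h1 ⟨a, ha, rfl⟩)
  have h3 : a ∈ zpowers c := (QuotientGroup.eq_one_iff a).1 h2
  obtain ⟨k, hk⟩ := mem_zpowers_iff.1 h3
  exact mem_zpowers_iff.2 ⟨k, congrArg Subtype.val hk⟩

/-- **The row of `J₃`.** -/
theorem crow_j3 {G : Type*} [Group G] [Finite G] [IsSimpleGroup G] (h : Spor.IsoJ3 G) (p : ℕ) [hp : Fact p.Prime] :
    CRow p G := by
  obtain ⟨hcard, hM, hone, -⟩ := Cfsg.Agent.CpAutJThree.base h
  have hna : ¬ IsMulCommutative G := not_comm_of_card (by rw [hcard]; norm_num)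
  have h2' : Fact (Nat.Prime 2) := ⟨Nat.prime_two⟩
  by_cases hd : p ∣ Nat.card G
  swap
  · exact crow_of_card hd
  have hd' : p ∣ 2 ^ 7 * (3 ^ 5 * (5 * (17 * 19))) := by
    rw [hcard] at hd
    norm_num
    exact hd
  have hpp := hp.out
  have htop : ∀ t : G, orderOf t = 2 → centralizer ({t} : Set G) ≠ ⊤ := by
    intro t ht h5
    have h6 := (hM t ht).2.1
    rw [h5, Nat.card_congr topEquiv.toEquiv, hcard] at h6
    norm_num at h6
  obtain ⟨t0, ht0⟩ := exists_prime_orderOf_dvd_card' (G := G) 2 (by rw [hcard]; norm_num)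
  have hidx : (centralizer ({t0} : Set G)).index = 26163 := by
    have h1 := (centralizer ({t0} : Set G)).card_mul_index
    rw [(hM t0 ht0).2.1, hcard] at h1
    omega
  by_cases hp2 : p = 2
  · subst hp2
    obtain ⟨-, -, Q, v, ρ, M⟩ := hM t0 ht0
    exact crow_two hna M (htop t0 ht0) (by rw [hidx]; norm_num)
  have hcore : ∀ t : G, orderOf t = 2 → pCore p (centralizer ({t} : Set G)) = ⊥ := by
    intro t ht
    obtain ⟨-, hct, Q, v, ρ, M⟩ := hM t ht
    exact pCore_model M hct hp2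
  have ht : ∀ t : G, t ≠ 1 → t * t = 1 → ∃ H : Subgroup G, H ≠ ⊤ ∧ centralizer {t} ≤ H ∧ pCore p H = ⊥ := by
    intro t ht1 ht2
    have ht : orderOf t = 2 := orderOf_eq_prime (by rw [pow_two, ht2]) ht1
    exact ⟨centralizer {t}, htop t ht, le_rfl, hcore t ht⟩
  rcases (Nat.Prime.dvd_mul hpp).1 hd' with h1 | h1
  · exact absurd ((Nat.prime_dvd_prime_iff_eq hpp Nat.prime_two).1 (hpp.dvd_of_dvd_pow h1)) hp2
  rcases (Nat.Prime.dvd_mul hpp).1 h1 with h1 | h1
  · obtain rfl := (Nat.prime_dvd_prime_iff_eq hpp (by norm_num)).1 (hpp.dvd_of_dvd_pow h1)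
    obtain ⟨P, k, hPi, hPc, hPk⟩ : ∃ (P : Subgroup G) (k : G), ¬ 3 ∣ P.index ∧
        (∀ x ∈ P, ∀ y ∈ P, x ^ 3 = 1 → y ^ 3 = 1 → x * y = y * x) ∧
        ∀ x ∈ P, x ^ 3 ≠ 1 → x⁻¹ * (k * x * k⁻¹)⁻¹ * x * (k * x * k⁻¹) ≠ 1 ∧
          (x⁻¹ * (k * x * k⁻¹)⁻¹ * x * (k * x * k⁻¹)) ^ 3 = 1 := by
      obtain ⟨F', _, _, ω, hF, hω, ⟨e⟩⟩ := h
      have H := Cfsg.Agent.J3.Core.good_of_card hF hω
      obtain ⟨P, k, h1, h2, h3⟩ := Cfsg.Agent.H442.CRowJThreeB.exists_P hF H
      refine ⟨P.comap e.toMonoidHom, e.symm k, ?_, ?_, ?_⟩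
      · rwa [index_comap_of_surjective P e.surjective]
      · intro x hx y hy hx3 hy3
        apply e.injective
        rw [map_mul, map_mul]
        exact h2 _ hx _ hy (by rw [← map_pow, hx3, map_one]) (by rw [← map_pow, hy3, map_one])
      · intro x hx hx3
        obtain ⟨h4, h5⟩ := h3 (e x) hx (fun h6 => hx3 (e.injective (by rw [map_pow, h6, map_one])))
        have e1 : e (x⁻¹ * (e.symm k * x * (e.symm k)⁻¹)⁻¹ * x * (e.symm k * x * (e.symm k)⁻¹)) =
            (e x)⁻¹ * (k * e x * k⁻¹)⁻¹ * e x * (k * e x * k⁻¹) := by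
          simp only [map_mul, map_inv, MulEquiv.apply_symm_apply]
        refine ⟨fun h6 => h4 ?_, ?_⟩
        · rw [← e1, h6, map_one]
        · apply e.injective
          rw [map_pow, e1, h5, map_one]
    intro C hC
    -- no elements of order 3
    have step : ∀ x ∈ C, x ≠ 1 → x ^ 3 ≠ 1 := by
      intro x hx hx1 hx3
      obtain ⟨c0, hc0, ⟨s, hs, hsc⟩, -⟩ := Cfsg.Agent.CpAutJThree.exc h
      obtain ⟨g, hg⟩ := hC.exists_conj_mem hPi hx
      obtain ⟨m, hm⟩ := Cfsg.Agent.H102.AAJthree.exists_conj_mem hPi hc0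
      have hgC := hC.conj g x hx
      have hg1 : g * x * g⁻¹ ≠ 1 := fun h => hx1 (by
        have : x = g⁻¹ * (g * x * g⁻¹) * g := by group
        rw [this, h]; group)
      have hc03 : c0 ^ 3 = 1 := by rw [← hc0, pow_orderOf_eq_one]
      have hcm : orderOf (m * c0 * m⁻¹) = 3 := by rw [Cfsg.Agent.H102.AAJthree.orderOf_conj, hc0]
      have htm : orderOf (m * s * m⁻¹) = 2 := by rw [Cfsg.Agent.H102.AAJthree.orderOf_conj, hs]
      have hcomm := hPc _ hg _ hm (by rw [conj_pow, hx3]; group) (by rw [conj_pow, hc03]; group)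
      have htc : m * s * m⁻¹ * (m * c0 * m⁻¹) = m * c0 * m⁻¹ * (m * s * m⁻¹) := by
        calc m * s * m⁻¹ * (m * c0 * m⁻¹) = m * (s * c0) * m⁻¹ := by group
          _ = m * (c0 * s) * m⁻¹ := by rw [hsc]
          _ = m * c0 * m⁻¹ * (m * s * m⁻¹) := by group
      have hc1 : m * c0 * m⁻¹ ≠ 1 := fun h => by rw [h, orderOf_one] at hcm; norm_num at hcm
      obtain ⟨S, hS⟩ := (hC.isPGroup_zpowers hgC).exists_le_sylow
      have hcen : center G = ⊥ := by
        rcases (inferInstance : (center G).Normal).eq_bot_or_eq_top with h | h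
        · exact h
        · exfalso
          apply hna
          exact ⟨⟨fun x y => (mem_center_iff.1 (h ▸ mem_top x : x ∈ center G) y).symm⟩⟩
      obtain ⟨-, -, ⟨a, ha, hax⟩⟩ := hC.centralizer_of_comm (pCore_eq_bot_of_simple hna 3) hcen hgC hg1 hc1 hcomm (P := S)
        (hS (mem_zpowers _))
      have h4 := mem_zpowers_of_three h hcm htm htc ha
      have h5 : (a : G) = g * x * g⁻¹ := hax
      rw [h5] at h4
      obtain ⟨n, hn⟩ := mem_zpowers_iff.1 h4
      have h6 := hC.odd_centralizer ht hgC hg1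
      have h7 : m * s * m⁻¹ ∈ centralizer ({g * x * g⁻¹} : Set G) := by
        rw [mem_centralizer_singleton_iff, ← hn]
        exact ((show Commute (m * s * m⁻¹) (m * c0 * m⁻¹) from htc).zpow_right n).eq
      have h8 : 2 ∣ Nat.card (centralizer ({g * x * g⁻¹} : Set G)) := by
        have h9 : orderOf (⟨m * s * m⁻¹, h7⟩ : centralizer ({g * x * g⁻¹} : Set G)) = 2 := by
          rw [Subgroup.orderOf_mk, htm]
        rw [← h9]; exact orderOf_dvd_natCard _
      exact (Nat.not_even_iff_odd.2 h6) (even_iff_two_dvd.2 h8)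
    intro c hc
    by_contra hc1
    obtain ⟨g, hg⟩ := hC.exists_conj_mem hPi hc
    have hgC := hC.conj g c hc
    have hg1 : g * c * g⁻¹ ≠ 1 := fun h => hc1 (by
      have : c = g⁻¹ * (g * c * g⁻¹) * g := by group
      rw [this, h]; group)
    obtain ⟨h3, h4⟩ := hPk _ hg (step _ hgC hg1)
    exact step _ (hC.comm _ hgC _ (hC.conj k _ hgC)) h3 h4
  rcases (Nat.Prime.dvd_mul hpp).1 h1 with h1 | h1
  · obtain rfl := (Nat.prime_dvd_prime_iff_eq hpp (by norm_num)).1 h1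
    intro C hC
    exact hC.eq_one_of_index (htop t0 ht0) (by rw [hidx]; norm_num) (hcore t0 ht0)
  obtain ⟨F', _, _, ω, hF, hω, ⟨e⟩⟩ := h
  have H := Cfsg.Agent.J3.Core.good_of_card hF hω
  have hcardJ := Cfsg.Agent.J3.Simple.card_J3 hF H
  have hfin : Finite (Spor.J3 F' ω) := Nat.finite_of_card_ne_zero (by rw [hcardJ]; norm_num)
  rcases (Nat.Prime.dvd_mul hpp).1 h1 with h1 | h1
  · obtain rfl := (Nat.prime_dvd_prime_iff_eq hpp (by norm_num)).1 h1
    exact CRow.of_equiv e (crow_of_words (by rw [hcardJ]; norm_num) (exists_seventeen hF H))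
  · obtain rfl := (Nat.prime_dvd_prime_iff_eq hpp (by norm_num)).1 h1
    exact CRow.of_equiv e (crow_of_words (by rw [hcardJ]; norm_num) (exists_nineteen hF H))

end Cfsg.Agent.H442.CRowJThree
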