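import Cfsg.Agent.H442.CRowTools
import Cfsg.Agent.H48.J3Three

/-!
# The row `CRow p G` of the third Janko group: computations in `3·J₃` (helper442, S3828)
-/

set_option autoImplicit false
set_option maxRecDepth 100000

namespace Cfsg.Agent.H442.CRowJThreeA

open Subgroup Cfsg Cfsg.Spor Cfsg.Agent.J3.Core Cfsg.Agent.J3.Tab Cfsg.Agent.J3.Mono Cfsg.Agent.J3.Elts
open Cfsg.Agent.J3.Order Cfsg.Agent.Lib.BitSet Cfsg.Agent.H48.J3Three

/-- two tables have different columns -/
def difT (T U : List ℕ) : Bool :=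
  (List.range 9).any fun z => !(Nat.beq ((cols T).getD z 0) ((cols U).getD z 0))

/-- the element of order 17 -/
def tY : List ℕ := compT (tD (0, 1)) tC

/-- the element of order 19 -/
def tX : List ℕ := compT (compT (tD (0, 1)) tE) tC

/-- the commutator `[y^k, (y^k)^g]`, `y^n = 1`, `m = n - k` -/
def tW (T g g' : List ℕ) (m k : ℕ) : List ℕ :=
  compT (compT (powT T m) (compT g' (compT (powT T m) g))) (compT (powT T k) (compT g' (compT (powT T k) g)))

theorem chkY : beqL (cols (powT tY 17)) (cols (tS 0)) = true := by decide +kernel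

theorem chkX : beqL (cols (powT tX 19)) (cols (tS 0)) = true := by decide +kernel

theorem chkE : beqL (cols (compT (compT tE tE) tE)) (cols (tS 0)) = true := by decide +kernel

theorem chkC : beqL (cols (compT tC tC)) (cols (tS 0)) = true := by decide +kernel

theorem chk17 : ∀ k : Fin 17, k ≠ 0 →
    difT (powT (powT (tW tY tE (compT tE tE) (17 - k) k) 17) 3) (tS 0) = true := by decide +kernel

theorem chk19 : ∀ k : Fin 19, k ≠ 0 →
    difT (powT (powT (tW tX tC tC (19 - k) k) 19) 3) (tS 0) = true := by decide +kernel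

/-- words for the elements outside `Ω₁`: `a^i b^j c^k` -/
def tP (i j k : ℕ) : List ℕ := compT (powT (lt 0) i) (compT (powT (lt 1) j) (powT (lt 3) k))

/-- conjugation by `h` -/
def tH (T : List ℕ) : List ℕ := compT (lt 2) (compT T (powT (lt 2) 3))

/-- the commutator `x⁻¹ (x^h)⁻¹ x x^h`, `x⁹ = 1` -/
def tU (T : List ℕ) : List ℕ := compT (compT (powT T 8) (tH (powT T 8))) (compT T (tH T))

theorem chkH : beqL (cols (compT (lt 2) (powT (lt 2) 3))) (cols (tS 0)) = true := by decide +kernel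

/-- a scalar table -/
def scT (T : List ℕ) : Bool := beqL (cols T) (cols (tS 0)) || beqL (cols T) (cols (tS 1)) || beqL (cols T) (cols (tS 2))

theorem chkP9 : ∀ i j k : Fin 3, ¬ (i = 0 ∧ j = 0) → scT (powT (tP i j k) 9) = true := by decide +kernel

theorem chkU3 : ∀ i j k : Fin 3, ¬ (i = 0 ∧ j = 0) → scT (powT (tU (tP i j k)) 3) = true := by decide +kernel

theorem chkU1 : ∀ i j k : Fin 3, ¬ (i = 0 ∧ j = 0) →
    difT (compT (tU (tP i j k)) (lt 0)) (compT (lt 0) (tU (tP i j k))) = true := by decide +kernel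

section

variable {F : Type*} [Field F] {ω : F} {G : Gens F ω}

theorem ne_of_dif (H : Good ω) {T U : List ℕ} {g h : threeJ3 F ω} (hT : RepG ω T g) (hU : RepG ω U h)
    (hd : difT T U = true) : g ≠ h := by
  unfold difT at hd
  rw [List.any_eq_true] at hd
  obtain ⟨z, hz, hne⟩ := hd
  intro e
  subst e
  have h1 := RepG.cols_eq H hT hU (z9 z)
  rw [idx_z9 z (List.mem_range.1 hz)] at h1
  rw [h1, Nat.beq_refl] at hne
  exact Bool.noConfusion hne

/-- the elements of the centre -/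
theorem center_cube [Fintype F] (hF : Fintype.card F = 4) (H : Good ω) {t : threeJ3 F ω}
    (ht : t ∈ center (threeJ3 F ω)) : t ^ 3 = 1 := by
  have h1 : Nat.card (center (threeJ3 F ω)) = 3 := Cfsg.Agent.J3.Nineteen.card_center hF H
  have h2 : (⟨t, ht⟩ : center (threeJ3 F ω)) ^ Nat.card (center (threeJ3 F ω)) = 1 := pow_card_eq_one'
  have h3 := congrArg Subtype.val h2
  have h4 : t ^ Nat.card (center (threeJ3 F ω)) = 1 := h3
  rwa [h1] at h4

theorem pr_ne_of_cube [Fintype F] (hF : Fintype.card F = 4) (H : Good ω) {T : List ℕ} {g : threeJ3 F ω}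
    (hT : RepG ω T g) (hd : difT (powT T 3) (tS 0) = true) : pr F ω g ≠ 1 := by
  intro h
  have h1 : g ∈ center (threeJ3 F ω) := by rw [← ker_pr]; exact h
  exact ne_of_dif H (hT.pow H 3) (repG_one H) hd (center_cube hF H h1)

/-- a scalar table gives an element of the centre -/
theorem pr_of_scT (H : Good ω) {T : List ℕ} {g : threeJ3 F ω} (hT : RepG ω T g) (hs : scT T = true) :
    pr F ω g = 1 := by
  have key : ∀ s : ℕ, s < 3 → cols T = cols (tS s) → pr F ω g = 1 := by
    intro s hs h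
    have h1 : Rep ω (tS s) (ω ^ s • (1 : Matrix F9 F9 F)) := repS H s hs
    have h2 : mat ω g = ω ^ s • (1 : Matrix F9 F9 F) := Rep.ext hT h1 h
    have h3 : g ∈ (pr F ω).ker := by rw [ker_pr]; exact mem_center_of_mat h2
    exact h3
  unfold scT at hs
  rw [Bool.or_eq_true, Bool.or_eq_true] at hs
  rcases hs with (h | h) | h
  · exact key 0 (by norm_num) (beqL_eq h)
  · exact key 1 (by norm_num) (beqL_eq h)
  · exact key 2 (by norm_num) (beqL_eq h)

/-- the element of order 17 -/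
def eY (G : Gens F ω) : threeJ3 F ω := G.d (0, 1) * G.c

/-- the element of order 19 -/
def eX (G : Gens F ω) : threeJ3 F ω := G.d (0, 1) * G.e * G.c

theorem rD (H : Good ω) (z : F9) : RepG ω (tD z) (G.d z) := by unfold RepG; rw [G.hd]; exact repD H _
theorem rE (H : Good ω) : RepG ω tE G.e := by unfold RepG; rw [G.he]; exact repE H
theorem rC (H : Good ω) : RepG ω tC G.c := by unfold RepG; rw [G.hc]; exact repC H

theorem repY (H : Good ω) : RepG ω tY (eY G) := (rD H _).mul (rC H)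
theorem repX (H : Good ω) : RepG ω tX (eX G) := ((rD H _).mul (rE H)).mul (rC H)

theorem repW (H : Good ω) {T t t' : List ℕ} {y g g' : threeJ3 F ω} (hT : RepG ω T y) (ht : RepG ω t g)
    (ht' : RepG ω t' g') (m k : ℕ) :
    RepG ω (tW T t t' m k) (y ^ m * (g' * (y ^ m * g)) * (y ^ k * (g' * (y ^ k * g)))) :=
  ((hT.pow H m).mul (ht'.mul ((hT.pow H m).mul ht))).mul ((hT.pow H k).mul (ht'.mul ((hT.pow H k).mul ht)))

/-- the commutator as a word -/
theorem word_eq {X : Type*} [Group X] {y g g' : X} {m k : ℕ} (hm : y ^ m = (y ^ k)⁻¹) (hg : g' = g⁻¹) :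
    y ^ m * (g' * (y ^ m * g)) * (y ^ k * (g' * (y ^ k * g))) =
      (y ^ k)⁻¹ * (g⁻¹ * y ^ k * g)⁻¹ * y ^ k * (g⁻¹ * y ^ k * g) := by
  rw [hm, hg]
  generalize y ^ k = x
  group

theorem map_word (y g g' : threeJ3 F ω) (m k : ℕ) :
    pr F ω (y ^ m * (g' * (y ^ m * g)) * (y ^ k * (g' * (y ^ k * g)))) =
      pr F ω y ^ m * (pr F ω g' * (pr F ω y ^ m * pr F ω g)) *
        (pr F ω y ^ k * (pr F ω g' * (pr F ω y ^ k * pr F ω g))) := by
  simp only [map_mul, map_pow]

theorem pow_sub_eq {X : Type*} [Group X] {y : X} {n k : ℕ} (h : y ^ n = 1) (hk : k < n) : y ^ (n - k) = (y ^ k)⁻¹ := by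
  rw [eq_inv_iff_mul_eq_one, ← pow_add, Nat.sub_add_cancel hk.le, h]

/-- the commutators of the powers of a given element of order 17 -/
theorem exists_seventeen [Fintype F] (hF : Fintype.card F = 4) (H : Good ω) : ∃ y g : J3 F ω, y ^ 17 = 1 ∧
    ∀ k : ℕ, 0 < k → k < 17 → ((y ^ k)⁻¹ * (g⁻¹ * y ^ k * g)⁻¹ * y ^ k * (g⁻¹ * y ^ k * g)) ^ 17 ≠ 1 := by
  obtain ⟨G⟩ := exists_gens hF H
  have hY := repY (G := G) H
  have hE := rE (G := G) H
  have hEE := hE.mul hE
  have h1 : eY G ^ 17 = 1 := (hY.pow H 17).ext (repG_one H) (beqL_eq chkY)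
  have h2 : G.e * G.e * G.e = 1 := (hEE.mul hE).ext (repG_one H) (beqL_eq chkE)
  have h1' : pr F ω (eY G) ^ 17 = 1 := by rw [← map_pow, h1, map_one]
  have h2' : pr F ω (G.e * G.e) = (pr F ω G.e)⁻¹ := by
    rw [eq_inv_iff_mul_eq_one, ← map_mul, h2, map_one]
  refine ⟨pr F ω (eY G), pr F ω G.e, h1', fun k hk0 hk => ?_⟩
  have h3 := chk17 ⟨k, hk⟩ (fun h => by
    have := congrArg Fin.val h
    simp at this
    omega)
  have h4 := pr_ne_of_cube hF H (((repW H hY hE hEE (17 - k) k)).pow H 17) h3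
  rwa [map_pow, map_word, word_eq (pow_sub_eq h1' hk) h2'] at h4

/-- the commutators of the powers of a given element of order 19 -/
theorem exists_nineteen [Fintype F] (hF : Fintype.card F = 4) (H : Good ω) : ∃ y g : J3 F ω, y ^ 19 = 1 ∧
    ∀ k : ℕ, 0 < k → k < 19 → ((y ^ k)⁻¹ * (g⁻¹ * y ^ k * g)⁻¹ * y ^ k * (g⁻¹ * y ^ k * g)) ^ 19 ≠ 1 := by
  obtain ⟨G⟩ := exists_gens hF H
  have hY := repX (G := G) H
  have hE := rC (G := G) H
  have h1 : eX G ^ 19 = 1 := (hY.pow H 19).ext (repG_one H) (beqL_eq chkX)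
  have h2 : G.c * G.c = 1 := (hE.mul hE).ext (repG_one H) (beqL_eq chkC)
  have h1' : pr F ω (eX G) ^ 19 = 1 := by rw [← map_pow, h1, map_one]
  have h2' : pr F ω G.c = (pr F ω G.c)⁻¹ := by
    rw [eq_inv_iff_mul_eq_one, ← map_mul, h2, map_one]
  refine ⟨pr F ω (eX G), pr F ω G.c, h1', fun k hk0 hk => ?_⟩
  have h3 := chk19 ⟨k, hk⟩ (fun h => by
    have := congrArg Fin.val h
    simp at this
    omega)
  have h4 := pr_ne_of_cube hF H (((repW H hY hE hE (19 - k) k)).pow H 19) h3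
  rwa [map_pow, map_word, word_eq (pow_sub_eq h1' hk) h2'] at h4

end

end Cfsg.Agent.H442.CRowJThreeA
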