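import Cfsg.Agent.H442.CRowJThreeA
import Cfsg.Agent.H102.AAJthree

/-!
# The row `CRow p G` of the third Janko group: the Sylow 3-subgroup (helper442, S3828)
-/

set_option autoImplicit false

namespace Cfsg.Agent.H442.CRowJThreeB

open Subgroup Cfsg Cfsg.Spor
open Cfsg.Agent.H48.Crit Cfsg.Agent.H102.AAThree
open scoped commutatorElement

section abs
variable {X : Type*} [Group X]

/-- normal form in the group of type `3^{2+1+2}` -/
theorem normal_form {a b c d e : X} (hc : ⁅a, b⁆ = c) (hd : ⁅c, a⁆ = d)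
    (he : ⁅c, b⁆ = e) (hda : d * a = a * d) (hdb : d * b = b * d) (hea : e * a = a * e) (heb : e * b = b * e)
    (hc3 : c ^ 3 = 1) (ha3 : a ^ 3 ∈ closure ({d, e} : Set X)) (hb3 : b ^ 3 ∈ closure ({d, e} : Set X)) :
    (∀ z ∈ closure ({d, e} : Set X), (∀ g ∈ closure ({a, b} : Set X), g * z = z * g) ∧ z ^ 3 = 1) ∧
    ∀ x ∈ closure ({a, b} : Set X), ∃ i j k : ℕ, i < 3 ∧ j < 3 ∧ k < 3 ∧ ∃ z ∈ closure ({d, e} : Set X),
      x = a ^ i * (b ^ j * c ^ k) * z := by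
  have hcd : c * d = d * c := by
    rw [← hc, commutatorElement_def]
    have h1 : Commute d a := hda
    have h2 : Commute d b := hdb
    exact (((h1.mul_right h2).mul_right h1.inv_right).mul_right h2.inv_right).symm
  have hce : c * e = e * c := by
    rw [← hc, commutatorElement_def]
    have h1 : Commute e a := hea
    have h2 : Commute e b := heb
    exact (((h1.mul_right h2).mul_right h1.inv_right).mul_right h2.inv_right).symm
  have hde : d * e = e * d := by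
    rw [← hd, commutatorElement_def]
    have h1 : Commute e c := hce.symm
    have h2 : Commute e a := hea
    exact (((h1.mul_right h2).mul_right h1.inv_right).mul_right h2.inv_right).symm
  have hd3 : d ^ 3 = 1 := by
    rw [← comm_zpow_of_comm hd hcd, hc3, commutatorElement_one_left]
  have he3 : e ^ 3 = 1 := by
    rw [← comm_zpow_of_comm he hce, hc3, commutatorElement_one_left]
  set E := closure ({c, d, e} : Set X) with hE
  set Z := closure ({d, e} : Set X) with hZ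
  have hcE : c ∈ E := subset_closure (by simp)
  have hdE : d ∈ E := subset_closure (by simp)
  have heE : e ∈ E := subset_closure (by simp)
  have hdZ : d ∈ Z := subset_closure (by simp)
  have heZ : e ∈ Z := subset_closure (by simp)
  have hZE : Z ≤ E := by
    rw [hZ, closure_le]
    rintro y (rfl | rfl)
    · exact hdE
    · exact heE
  -- `Z` commutes with everything
  have hZc : ∀ z ∈ Z, z * a = a * z ∧ z * b = b * z ∧ z * c = c * z ∧ z ^ 3 = 1 := by
    intro z hz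
    obtain ⟨i, j, rfl⟩ := mem_closure_pair_comm hde hz
    refine ⟨?_, ?_, ?_, ?_⟩
    · exact ((show Commute d a from hda).zpow_left i).mul_left ((show Commute e a from hea).zpow_left j)
    · exact ((show Commute d b from hdb).zpow_left i).mul_left ((show Commute e b from heb).zpow_left j)
    · exact ((show Commute d c from hcd.symm).zpow_left i).mul_left ((show Commute e c from hce.symm).zpow_left j)
    · have h1 : Commute (d ^ i) (e ^ j) := ((show Commute d e from hde).zpow_left i).zpow_right j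
      rw [h1.mul_pow, ← zpow_natCast, ← zpow_natCast, ← zpow_mul, ← zpow_mul, mul_comm i, mul_comm j, zpow_mul, zpow_mul,
        zpow_natCast, zpow_natCast, hd3, he3, one_zpow, one_zpow, one_mul]
  -- the elements of `E`
  have hEf : ∀ s ∈ E, ∃ i : ℤ, ∃ z ∈ Z, s = c ^ i * z := by
    intro s hs
    obtain ⟨i, y, hy, rfl⟩ := mem_closure_insert_comm (S := {d, e}) (by
      rintro y (rfl | rfl)
      · exact hcd
      · exact hce) hs
    exact ⟨i, y, hy, rfl⟩
  -- the action of `P` on `c`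
  have hcP : ∀ g ∈ closure ({a, b} : Set X), (∃ w ∈ Z, g * c * g⁻¹ = w * c) ∧ (∀ z ∈ Z, g * z = z * g) := by
    intro g hg
    induction hg using closure_induction with
    | mem y hy =>
      rcases hy with rfl | rfl
      · exact ⟨⟨d⁻¹, inv_mem hdZ, by rw [← hd, commutatorElement_def]; group⟩, fun z hz => (hZc z hz).1.symm⟩
      · exact ⟨⟨e⁻¹, inv_mem heZ, by rw [← he, commutatorElement_def]; group⟩, fun z hz => (hZc z hz).2.1.symm⟩
    | one => exact ⟨⟨1, one_mem _, by group⟩, fun z _ => by rw [one_mul, mul_one]⟩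
    | mul y z _ _ hy hz =>
      obtain ⟨⟨w, hw, hy1⟩, hy2⟩ := hy
      obtain ⟨⟨v, hv, hz1⟩, hz2⟩ := hz
      refine ⟨⟨v * w, mul_mem hv hw, ?_⟩, fun u hu => ?_⟩
      · calc y * z * c * (y * z)⁻¹ = y * (z * c * z⁻¹) * y⁻¹ := by group
          _ = (y * v) * c * y⁻¹ := by rw [hz1]; group
          _ = v * (y * c * y⁻¹) := by rw [hy2 v hv]; group
          _ = v * w * c := by rw [hy1]; group
      · rw [mul_assoc, hz2 u hu, ← mul_assoc, hy2 u hu, mul_assoc]
    | inv y _ hy =>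
      obtain ⟨⟨w, hw, hy1⟩, hy2⟩ := hy
      have h2 : ∀ z ∈ Z, y⁻¹ * z = z * y⁻¹ := fun z hz => ((show Commute y z from hy2 z hz).inv_left).eq
      refine ⟨⟨w⁻¹, inv_mem hw, ?_⟩, h2⟩
      have h3 : y * c = w * c * y := by rw [← hy1]; group
      calc y⁻¹ * c * y⁻¹⁻¹ = y⁻¹ * w⁻¹ * (w * c * y) := by group
        _ = (y⁻¹ * w⁻¹) * (y * c) := by rw [← h3]
        _ = (w⁻¹ * y⁻¹) * (y * c) := by rw [h2 _ (inv_mem hw)]
        _ = w⁻¹ * c := by group
  -- the action of `P` on `E`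
  have hEn : ∀ g ∈ closure ({a, b} : Set X), ∀ s ∈ E, g * s * g⁻¹ ∈ E := by
    intro g hg s hs
    obtain ⟨⟨w, hw, h1⟩, h2⟩ := hcP g hg
    obtain ⟨i, z, hz, rfl⟩ := hEf s hs
    have h3 : Commute w c := (hZc w hw).2.2.1
    have h4 : g * (c ^ i * z) * g⁻¹ = w ^ i * (c ^ i * z) := by
      calc g * (c ^ i * z) * g⁻¹ = (g * c ^ i * g⁻¹) * (g * z * g⁻¹) := by group
        _ = (g * c * g⁻¹) ^ i * z := by rw [h2 z hz, mul_inv_cancel_right, conj_zpow]
        _ = w ^ i * (c ^ i * z) := by rw [h1, h3.mul_zpow, mul_assoc]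
    rw [h4]
    exact mul_mem (hZE (zpow_mem hw i)) hs
  refine ⟨fun z hz => ⟨fun g hg => (hcP g hg).2 z hz, (hZc z hz).2.2.2⟩, fun x hx => ?_⟩
  have haP : a ∈ closure ({a, b} : Set X) := subset_closure (by simp)
  have hbP : b ∈ closure ({a, b} : Set X) := subset_closure (by simp)
  obtain ⟨i, j, s, hs, hxs⟩ := exists_coset (E := E) (hEn a haP)
    (fun s hs => by simpa using hEn a⁻¹ (inv_mem haP) s hs) (hEn b hbP)
    (fun s hs => by simpa using hEn b⁻¹ (inv_mem hbP) s hs) (by rw [hc]; exact hcE) hx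
  obtain ⟨k, w, hw, rfl⟩ := hEf s hs
  obtain ⟨i0, i', hi0, hi⟩ : ∃ i0 : ℕ, ∃ i' : ℤ, i0 < 3 ∧ i = i0 + 3 * i' := by
    refine ⟨(i % 3).toNat, i / 3, ?_, ?_⟩ <;> omega
  obtain ⟨j0, j', hj0, hj⟩ : ∃ j0 : ℕ, ∃ j' : ℤ, j0 < 3 ∧ j = j0 + 3 * j' := by
    refine ⟨(j % 3).toNat, j / 3, ?_, ?_⟩ <;> omega
  obtain ⟨k0, k', hk0, hk⟩ : ∃ k0 : ℕ, ∃ k' : ℤ, k0 < 3 ∧ k = k0 + 3 * k' := by
    refine ⟨(k % 3).toNat, k / 3, ?_, ?_⟩ <;> omega
  have e1 : a ^ i = a ^ i0 * (a ^ 3) ^ i' := by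
    have e0 : a ^ (3 : ℤ) = a ^ 3 := zpow_natCast a 3
    rw [hi, zpow_add, zpow_mul, e0, zpow_natCast]
  have e2 : b ^ j = b ^ j0 * (b ^ 3) ^ j' := by
    have e0 : b ^ (3 : ℤ) = b ^ 3 := zpow_natCast b 3
    rw [hj, zpow_add, zpow_mul, e0, zpow_natCast]
  have e3 : c ^ k = c ^ k0 := by
    have h0 : c ^ (3 : ℤ) = 1 := by rw [← hc3]; exact zpow_natCast c 3
    rw [hk, zpow_add, zpow_mul, h0, one_zpow, mul_one, zpow_natCast]
  have hu := zpow_mem ha3 i'
  have hv := zpow_mem hb3 j'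
  refine ⟨i0, j0, k0, hi0, hj0, hk0, (a ^ 3) ^ i' * (b ^ 3) ^ j' * w, mul_mem (mul_mem hu hv) hw, ?_⟩
  rw [hxs, e1, e2, e3]
  generalize (a ^ 3) ^ i' = s at *
  generalize (b ^ 3) ^ j' = t at *
  have c1 := hZc s hu
  have c2 := hZc t hv
  have f1 : s * b ^ j0 = b ^ j0 * s := (show Commute s b from c1.2.1).pow_right _
  have f2 : s * c ^ k0 = c ^ k0 * s := (show Commute s c from c1.2.2.1).pow_right _
  have f3 : t * c ^ k0 = c ^ k0 * t := (show Commute t c from c2.2.2.1).pow_right _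
  calc a ^ i0 * s * (b ^ j0 * t) * (c ^ k0 * w) = a ^ i0 * (s * b ^ j0) * (t * c ^ k0) * w := by group
    _ = a ^ i0 * (b ^ j0 * s) * (c ^ k0 * t) * w := by rw [f1, f3]
    _ = a ^ i0 * b ^ j0 * (s * c ^ k0) * t * w := by group
    _ = a ^ i0 * b ^ j0 * (c ^ k0 * s) * t * w := by rw [f2]
    _ = a ^ i0 * (b ^ j0 * c ^ k0) * (s * t * w) := by group

/-- central factors drop out of commutators -/
theorem comm_central {x y z w : X} (hzx : z * x = x * z) (hzy : z * y = y * z) (hzw : z * w = w * z)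
    (hwx : w * x = x * w) (hwy : w * y = y * w) :
    (x * z)⁻¹ * (y * w)⁻¹ * (x * z) * (y * w) = x⁻¹ * y⁻¹ * x * y := by
  have h1 : Commute z (x * (y * w)) :=
    (show Commute z x from hzx).mul_right ((show Commute z y from hzy).mul_right (show Commute z w from hzw))
  have h2 : Commute w (x * y) := (show Commute w x from hwx).mul_right (show Commute w y from hwy)
  have h3 : (x * z)⁻¹ = x⁻¹ * z⁻¹ := by rw [← hzx]; group
  have h4 : (y * w)⁻¹ = y⁻¹ * w⁻¹ := by rw [← hwy]; group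
  have h5 : z⁻¹ * y⁻¹ = y⁻¹ * z⁻¹ := ((show Commute z y from hzy).inv_inv).eq
  have h6 : z⁻¹ * w⁻¹ = w⁻¹ * z⁻¹ := ((show Commute z w from hzw).inv_inv).eq
  have h7 : z⁻¹ * x = x * z⁻¹ := ((show Commute z x from hzx).inv_left).eq
  have h8 : w⁻¹ * (x * y) = x * y * w⁻¹ := (h2.inv_left).eq
  calc (x * z)⁻¹ * (y * w)⁻¹ * (x * z) * (y * w) = x⁻¹ * (z⁻¹ * y⁻¹) * w⁻¹ * x * z * y * w := by
        rw [h3, h4]; group
    _ = x⁻¹ * y⁻¹ * (z⁻¹ * w⁻¹) * x * z * y * w := by rw [h5]; group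
    _ = x⁻¹ * y⁻¹ * w⁻¹ * (z⁻¹ * x) * z * y * w := by rw [h6]; group
    _ = x⁻¹ * y⁻¹ * w⁻¹ * x * y * w := by rw [h7]; group
    _ = x⁻¹ * y⁻¹ * (w⁻¹ * (x * y)) * w := by group
    _ = x⁻¹ * y⁻¹ * x * y := by rw [h8]; group

end abs

section model

open Cfsg.Agent.J3.Core Cfsg.Agent.J3.Tab Cfsg.Agent.J3.Mono Cfsg.Agent.J3.Elts
open Cfsg.Agent.H48.J3Three Cfsg.Agent.H442.CRowJThreeA

variable {F : Type*} [Field F] {ω : F} {G : Gens F ω}

/-- the commutators `[x, x^h]` for `x = a^i b^j c^k` -/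
theorem comm_word (H : Good ω) {i j k : ℕ} (hi : i < 3) (hj : j < 3) (hk : k < 3) (hij : ¬ (i = 0 ∧ j = 0))
    {x y : J3 F ω} (hx : x = q G 0 ^ i * (q G 1 ^ j * q G 3 ^ k)) (hy : y = q G 2 * x * (q G 2)⁻¹) :
    x⁻¹ * y⁻¹ * x * y ≠ 1 ∧ (x⁻¹ * y⁻¹ * x * y) ^ 3 = 1 := by
  set X : threeJ3 F ω := lg G 0 ^ i * (lg G 1 ^ j * lg G 3 ^ k) with hX
  have hT : RepG ω (tP i j k) X := ((rep_lg H 0).pow H i).mul (((rep_lg H 1).pow H j).mul ((rep_lg H 3).pow H k))
  have hHt : ∀ {T : List ℕ} {g : threeJ3 F ω}, RepG ω T g → RepG ω (tH T) (lg G 2 * (g * lg G 2 ^ 3)) :=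
    fun hg => (rep_lg H 2).mul (hg.mul ((rep_lg H 2).pow H 3))
  have hU := ((hT.pow H 8).mul (hHt (hT.pow H 8))).mul (hT.mul (hHt hT))
  have hij' : ¬ ((⟨i, hi⟩ : Fin 3) = 0 ∧ (⟨j, hj⟩ : Fin 3) = 0) := by
    rintro ⟨h1, h2⟩
    exact hij ⟨congrArg Fin.val h1, congrArg Fin.val h2⟩
  have c9 := pr_of_scT H (hT.pow H 9) (chkP9 ⟨i, hi⟩ ⟨j, hj⟩ ⟨k, hk⟩ hij')
  have c3 := pr_of_scT H (hU.pow H 3) (chkU3 ⟨i, hi⟩ ⟨j, hj⟩ ⟨k, hk⟩ hij')
  have c1 := ne_of_dif H (hU.mul (rep_lg (G := G) H 0)) ((rep_lg (G := G) H 0).mul hU) (chkU1 ⟨i, hi⟩ ⟨j, hj⟩ ⟨k, hk⟩ hij')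
  have hh : lg G 2 * lg G 2 ^ 3 = 1 := ((rep_lg H 2).mul ((rep_lg H 2).pow H 3)).ext (repG_one H) (beqL_eq chkH)
  have hpx : pr F ω X = x := by
    rw [hx, hX, map_mul, map_mul, map_pow, map_pow, map_pow]; rfl
  have hx9 : x ^ 8 = x⁻¹ := by
    rw [eq_inv_iff_mul_eq_one, ← pow_succ, ← hpx, ← map_pow]; exact c9
  have hh3 : q G 2 ^ 3 = (q G 2)⁻¹ := by
    rw [eq_inv_iff_mul_eq_one, ← pow_succ, pow_succ', q, ← map_pow, ← map_mul, hh, map_one]
  have hpU : pr F ω (X ^ 8 * (lg G 2 * (X ^ 8 * lg G 2 ^ 3)) * (X * (lg G 2 * (X * lg G 2 ^ 3)))) =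
      x⁻¹ * y⁻¹ * x * y := by
    have h1 : pr F ω (X ^ 8 * (lg G 2 * (X ^ 8 * lg G 2 ^ 3)) * (X * (lg G 2 * (X * lg G 2 ^ 3)))) =
        x ^ 8 * (q G 2 * (x ^ 8 * q G 2 ^ 3)) * (x * (q G 2 * (x * q G 2 ^ 3))) := by
      simp only [map_mul, map_pow, hpx]
      rfl
    rw [h1, hx9, hh3, hy]
    generalize q G 2 = h
    group
  refine ⟨fun h => ?_, ?_⟩
  · rw [← hpU] at h
    have h2 : X ^ 8 * (lg G 2 * (X ^ 8 * lg G 2 ^ 3)) * (X * (lg G 2 * (X * lg G 2 ^ 3))) ∈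
        center (threeJ3 F ω) := by rw [← ker_pr]; exact h
    exact c1 (mem_center_iff.1 h2 _).symm
  · rw [← hpU, ← map_pow]; exact c3

/-- **A 3-subgroup `P` of index prime to 3, whose elements of order 3 commute, and an element `h` such that
`[x, x^h]` has order 3 for all `x ∈ P` with `x³ ≠ 1`.** -/
theorem exists_P [Fintype F] (hF : Fintype.card F = 4) (H : Good ω) : ∃ (P : Subgroup (J3 F ω)) (h : J3 F ω),
    ¬ 3 ∣ P.index ∧ (∀ x ∈ P, ∀ y ∈ P, x ^ 3 = 1 → y ^ 3 = 1 → x * y = y * x) ∧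
    ∀ x ∈ P, x ^ 3 ≠ 1 → x⁻¹ * (h * x * h⁻¹)⁻¹ * x * (h * x * h⁻¹) ≠ 1 ∧
      (x⁻¹ * (h * x * h⁻¹)⁻¹ * x * (h * x * h⁻¹)) ^ 3 = 1 := by
  obtain ⟨G⟩ := exists_gens hF H
  have hcard := Cfsg.Agent.J3.Simple.card_J3 hF H
  have hfin : Finite (J3 F ω) := Nat.finite_of_card_ne_zero (by rw [hcard]; norm_num)
  have hab : ⁅q G 0, q G 1⁆ = q G 3 := by
    have h1 := congrArg (pr F ω) (wd_eq (G := G) H k_comm)
    rw [wd_cons, wd_one, wd_cons, wd_cons, wd_one, map_mul, map_mul, map_mul] at h1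
    have h2 : q G 0 * q G 1 = q G 3 * (q G 1 * q G 0) := h1
    rw [commutatorElement_def, h2]; group
  have r3 : ∀ {x y z : ℕ} {s : ℕ} (_ : s < 3)
      (_ : beqL (cols (wt [x, y])) (cols (compT (tS s) (wt [z, y, x]))) = true), ⁅q G x, q G y⁆ = q G z := by
    intro x y z s hs h
    have h1 := pr_eqS (G := G) H hs h
    rw [wd_cons, wd_one, wd_cons, wd_cons, wd_one, map_mul, map_mul, map_mul] at h1
    have h2 : q G x * q G y = q G z * (q G y * q G x) := h1
    rw [commutatorElement_def, h2]; group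
  have cube : ∀ {x : ℕ} {s : ℕ} {l : List ℕ} (_ : s < 3)
      (_ : beqL (cols (wt [x, x, x])) (cols (compT (tS s) (wt l))) = true), q G x ^ 3 = pr F ω (wd G l) := by
    intro x s l hs h
    have h1 := pr_eqS (G := G) H hs h
    rw [← h1, wd_cons, wd_cons, wd_one, map_mul, map_mul, pow_succ, pow_two, mul_assoc]
    rfl
  have hca := r3 (by norm_num) k_ca
  have hcb := r3 (by norm_num) k_cb
  have hda := q2 (G := G) H (by norm_num) k_da
  have hdb := q2 (G := G) H (by norm_num) k_db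
  have hea := q2 (G := G) H (by norm_num) k_ea
  have heb := q2 (G := G) H (by norm_num) k_eb
  have c3 : q G 3 ^ 3 = 1 := by rw [cube (by norm_num) k_c3, wd_nil, map_one]
  have d3 : q G 4 ^ 3 = 1 := by rw [cube (by norm_num) k_d3, wd_nil, map_one]
  have e3 : q G 5 ^ 3 = 1 := by rw [cube (by norm_num) k_e3, wd_nil, map_one]
  have a3 : q G 0 ^ 3 = q G 5 := by rw [cube (by norm_num) k_a3, wd_one]; rfl
  have b3 : q G 1 ^ 3 = q G 4 * q G 4 := by rw [cube (by norm_num) k_b3, wd_cons, wd_one, map_mul]; rfl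
  have ha9 : q G 0 ^ 3 ^ 2 = 1 := by rw [show 3 ^ 2 = 3 * 3 by norm_num, pow_mul, a3, e3]
  have hb9 : q G 1 ^ 3 ^ 2 = 1 := by
    rw [show 3 ^ 2 = 3 * 3 by norm_num, pow_mul, b3, ← pow_two, ← pow_mul, mul_comm, pow_mul, d3, one_pow]
  have hha : q G 2 * q G 0 * (q G 2)⁻¹ = q G 1 := by
    rw [show q G 2 * q G 0 = q G 1 * q G 2 from q2 (G := G) H (by norm_num) k_ha, mul_inv_cancel_right]
  have hhd : q G 2 * q G 4 * (q G 2)⁻¹ = q G 5 := by
    rw [show q G 2 * q G 4 = q G 5 * q G 2 from q2 (G := G) H (by norm_num) k_hd, mul_inv_cancel_right]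
  have hhb : q G 2 * q G 1 * (q G 2)⁻¹ = (q G 0)⁻¹ := by
    have h1 := pr_eqS (G := G) H (by norm_num) k_hb
    rw [wd_cons, wd_cons, wd_one, wd_one, map_mul, map_mul] at h1
    have h2 : q G 0 * (q G 2 * q G 1) = q G 2 := h1
    rw [eq_inv_iff_mul_eq_one]
    calc q G 2 * q G 1 * (q G 2)⁻¹ * q G 0 = (q G 0)⁻¹ * (q G 0 * (q G 2 * q G 1)) * (q G 2)⁻¹ * q G 0 := by group
      _ = 1 := by rw [h2]; group
  have hhe : q G 2 * q G 5 * (q G 2)⁻¹ = (q G 4)⁻¹ := by
    have h1 := pr_eqS (G := G) H (by norm_num) k_he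
    rw [wd_cons, wd_cons, wd_one, wd_one, map_mul, map_mul] at h1
    have h2 : q G 4 * (q G 2 * q G 5) = q G 2 := h1
    rw [eq_inv_iff_mul_eq_one]
    calc q G 2 * q G 5 * (q G 2)⁻¹ * q G 4 = (q G 4)⁻¹ * (q G 4 * (q G 2 * q G 5)) * (q G 2)⁻¹ * q G 4 := by group
      _ = 1 := by rw [h2]; group
  have hind := independent (G := G) H
  have h35 := Cfsg.Agent.H48.Crit.three_pow_five hab hca hcb hda hdb hea heb c3 ⟨2, ha9⟩ ⟨2, hb9⟩ hind
  have hidx : ¬ 3 ∣ (closure ({q G 0, q G 1} : Set (J3 F ω))).index :=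
    Cfsg.Agent.H48.Crit.index_not_dvd Nat.prime_three h35 (by rw [hcard]; norm_num)
  obtain ⟨hcen, hnf⟩ := normal_form hab hca hcb hda hdb hea heb c3
    (by rw [a3]; exact subset_closure (by simp))
    (by rw [b3]; exact mul_mem (subset_closure (by simp)) (subset_closure (by simp)))
  set P := closure ({q G 0, q G 1} : Set (J3 F ω)) with hP
  have hcP : q G 3 ∈ P := by
    rw [← hab, commutatorElement_def]
    have h0 : q G 0 ∈ P := subset_closure (by simp)
    have h1 : q G 1 ∈ P := subset_closure (by simp)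
    exact mul_mem (mul_mem (mul_mem h0 h1) (inv_mem h0)) (inv_mem h1)
  have hcj : ∀ z ∈ closure ({q G 4, q G 5} : Set (J3 F ω)), (q G 3 * z = z * q G 3) := fun z hz =>
    (hcen z hz).1 _ hcP
  refine ⟨P, q G 2, hidx, ?_, ?_⟩
  · -- elements of order 3
    have hmem : ∀ x ∈ P, x ^ 3 = 1 → x ∈ closure ({q G 3, q G 4, q G 5} : Set (J3 F ω)) := fun x hx hx3 =>
      mem_of_cube hab hca hcb hda hdb hea heb c3 (by rw [a3]; exact subset_closure (by simp))
        (by rw [b3]; exact mul_mem (subset_closure (by simp)) (subset_closure (by simp)))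
        (fun i j hi hj h => Cfsg.Agent.H102.AAJthree.cube_ne H hi hj h) hx hx3
    have hcd : q G 3 * q G 4 = q G 4 * q G 3 := (hcen _ (subset_closure (by simp))).1 _ hcP
    have hce : q G 3 * q G 5 = q G 5 * q G 3 := (hcen _ (subset_closure (by simp))).1 _ hcP
    have hdP : q G 4 ∈ P := by
      rw [← hca, commutatorElement_def]
      have h0 : q G 0 ∈ P := subset_closure (by simp)
      exact mul_mem (mul_mem (mul_mem hcP h0) (inv_mem hcP)) (inv_mem h0)
    have hde : q G 4 * q G 5 = q G 5 * q G 4 := (hcen _ (subset_closure (by simp))).1 _ hdP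
    have hcl : closure ({q G 3, q G 4, q G 5} : Set (J3 F ω)) ≤
        centralizer ((closure ({q G 3, q G 4, q G 5} : Set (J3 F ω)) : Subgroup (J3 F ω)) : Set (J3 F ω)) := by
      rw [centralizer_closure, closure_le]
      rintro x hx
      rw [SetLike.mem_coe, mem_centralizer_iff]
      rintro y hy
      rcases hx with rfl | rfl | rfl <;> rcases hy with rfl | rfl | rfl
      · rfl
      · exact hcd.symm
      · exact hce.symm
      · exact hcd
      · rfl
      · exact hde.symm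
      · exact hce
      · exact hde
      · rfl
    intro x hx y hy hx3 hy3
    exact (mem_centralizer_iff.1 (hcl (hmem x hx hx3)) y (hmem y hy hy3)).symm
  · intro x hx hx3
    obtain ⟨i, j, k, hi, hj, hk, z, hz, hxe⟩ := hnf x hx
    have h0 : q G 0 ∈ P := subset_closure (by simp)
    have h1 : q G 1 ∈ P := subset_closure (by simp)
    -- `h` normalizes `P` and `Z`
    have hhP : ∀ y ∈ P, q G 2 * y * (q G 2)⁻¹ ∈ P := by
      intro y hy
      have h2 : P.map (MulAut.conj (q G 2)).toMonoidHom ≤ P := by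
        rw [hP, MonoidHom.map_closure, closure_le]
        rintro _ ⟨w, (rfl | rfl), rfl⟩
        · show q G 2 * q G 0 * (q G 2)⁻¹ ∈ P
          rw [hha]; exact h1
        · show q G 2 * q G 1 * (q G 2)⁻¹ ∈ P
          rw [hhb]; exact inv_mem h0
      exact h2 ⟨y, hy, rfl⟩
    have hhZ : q G 2 * z * (q G 2)⁻¹ ∈ closure ({q G 4, q G 5} : Set (J3 F ω)) := by
      have h2 : (closure ({q G 4, q G 5} : Set (J3 F ω))).map (MulAut.conj (q G 2)).toMonoidHom ≤
          closure ({q G 4, q G 5} : Set (J3 F ω)) := by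
        rw [MonoidHom.map_closure, closure_le]
        rintro _ ⟨w, (rfl | rfl), rfl⟩
        · show q G 2 * q G 4 * (q G 2)⁻¹ ∈ closure ({q G 4, q G 5} : Set (J3 F ω))
          rw [hhd]; exact subset_closure (by simp)
        · show q G 2 * q G 5 * (q G 2)⁻¹ ∈ closure ({q G 4, q G 5} : Set (J3 F ω))
          rw [hhe]; exact inv_mem (subset_closure (by simp))
      exact h2 ⟨z, hz, rfl⟩
    obtain ⟨x0, hx0⟩ : ∃ x0, x0 = q G 0 ^ i * (q G 1 ^ j * q G 3 ^ k) := ⟨_, rfl⟩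
    rw [← hx0] at hxe
    have hx0P : x0 ∈ P := by
      rw [hx0]; exact mul_mem (pow_mem h0 _) (mul_mem (pow_mem h1 _) (pow_mem hcP _))
    have hij : ¬ (i = 0 ∧ j = 0) := by
      rintro ⟨rfl, rfl⟩
      apply hx3
      rw [pow_zero, pow_zero, one_mul, one_mul] at hx0
      have h2 : Commute (q G 3 ^ k) z := (show Commute (q G 3) z from hcj z hz).pow_left k
      rw [hxe, hx0, h2.mul_pow, (hcen z hz).2, mul_one, ← pow_mul, mul_comm, pow_mul, c3, one_pow]
    obtain ⟨c1, c2⟩ := comm_word H hi hj hk hij hx0 (y := q G 2 * x0 * (q G 2)⁻¹) rfl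
    have hy0P := hhP x0 hx0P
    have e1 : q G 2 * x * (q G 2)⁻¹ = (q G 2 * x0 * (q G 2)⁻¹) * (q G 2 * z * (q G 2)⁻¹) := by rw [hxe]; group
    have hzP : z ∈ P := by
      have h2 : closure ({q G 4, q G 5} : Set (J3 F ω)) ≤ P := by
        rw [closure_le]
        have hdP : q G 4 ∈ P := by
          rw [← hca, commutatorElement_def]
          exact mul_mem (mul_mem (mul_mem hcP h0) (inv_mem hcP)) (inv_mem h0)
        have heP : q G 5 ∈ P := by rw [← a3]; exact pow_mem h0 3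
        rintro w (rfl | rfl)
        · exact hdP
        · exact heP
      exact h2 hz
    have e2 := comm_central (x := x0) (y := q G 2 * x0 * (q G 2)⁻¹) (z := z) (w := q G 2 * z * (q G 2)⁻¹)
      ((hcen z hz).1 x0 hx0P).symm ((hcen z hz).1 _ hy0P).symm ((hcen _ hhZ).1 z hzP)
      ((hcen _ hhZ).1 x0 hx0P).symm ((hcen _ hhZ).1 _ hy0P).symm
    rw [e1, hxe, e2]
    exact ⟨c1, c2⟩

end model

end Cfsg.Agent.H442.CRowJThreeB
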