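import Cfsg.Agent.H442.CRowTools
import Cfsg.Agent.H379.J2Orders

/-!
# The row `CRow p G` of the Hall–Janko group (helper442, S3828)
-/

set_option autoImplicit false

namespace Cfsg.Agent.H442.CRowJTwo

open Subgroup Cfsg Cfsg.Agent.Lib.Cores Cfsg.Agent.H162.CCR
open Cfsg.Agent.J2Type.Model Cfsg.Agent.J2Type.CStruct
open Cfsg.Agent.H102.AAJtwo Cfsg.Agent.H442.CRowTools

/-- `O_p(C(t)) = 1` for a conjugate of `z` -/
theorem pCore_conj {G : Type*} [Group G] {p : ℕ} {z t : G} (h : IsConj z t)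
    (hz : pCore p (centralizer ({z} : Set G)) = ⊥) : pCore p (centralizer ({t} : Set G)) = ⊥ := by
  obtain ⟨g, rfl⟩ := isConj_iff.1 h
  rw [eq_bot_iff]
  let e : centralizer ({g * z * g⁻¹} : Set G) ≃* centralizer ({z} : Set G) :=
    { toFun := fun x => ⟨g⁻¹ * x * g⁻¹⁻¹, mem_cent_conj rfl (mem_centralizer_singleton_iff.1 x.2)⟩
      invFun := fun x => ⟨g * x * g⁻¹, by
        rw [mem_centralizer_singleton_iff]
        have h1 := mem_centralizer_singleton_iff.1 x.2
        calc g * x * g⁻¹ * (g * z * g⁻¹) = g * (x * z) * g⁻¹ := by group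
          _ = g * (z * x) * g⁻¹ := by rw [h1]
          _ = g * z * g⁻¹ * (g * x * g⁻¹) := by group⟩
      left_inv := fun x => by ext; show g * (g⁻¹ * x * g⁻¹⁻¹) * g⁻¹ = x; group
      right_inv := fun x => by ext; show g⁻¹ * (g * x * g⁻¹) * g⁻¹⁻¹ = x; group
      map_mul' := fun x y => by
        ext
        show g⁻¹ * (x * y) * g⁻¹⁻¹ = g⁻¹ * x * g⁻¹⁻¹ * (g⁻¹ * y * g⁻¹⁻¹)
        group }
  intro x hx
  have h1 := pCore_of_equiv e hx
  rw [hz, mem_bot] at h1
  rw [mem_bot]
  exact (map_eq_one_iff e e.injective).1 h1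

/-- **The row of `J₂`.** -/
theorem crow_j2 {G : Type*} [Group G] [Finite G] [IsSimpleGroup G] (h : Spor.IsoJ2 G) (p : ℕ) [hp : Fact p.Prime] :
    CRow p G := by
  obtain ⟨z, u, Q, v, ρ, D⟩ := Cfsg.Agent.KFacts.J2.Facts.exists_dat_of h
  have F := D.F
  have hcard := Cfsg.Agent.J2Type.Order.card_of_fus F
  have hna : ¬ IsMulCommutative G := not_comm_of_card (by rw [hcard]; norm_num)
  by_cases hd : p ∣ Nat.card G
  swap
  · exact crow_of_card hd
  have hd' : p ∣ 2 ^ 7 * (3 ^ 3 * (5 ^ 2 * 7)) := by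
    rw [hcard] at hd
    norm_num
    exact hd
  have hpp := hp.out
  have hone : ∀ t : G, orderOf t = 2 → centralizer ({t} : Set G) ≠ ⊤ := by
    intro t ht h5
    have hc : Nat.card (centralizer ({t} : Set G)) = 1920 ∨ Nat.card (centralizer ({t} : Set G)) = 240 := by
      rcases F.cover t ht with h1 | h1
      · left; rw [← Cfsg.Agent.J2Type.Cent5.card_centralizer_of_isConj h1]; exact F.cardC
      · right
        rw [← Cfsg.Agent.J2Type.Cent5.card_centralizer_of_isConj h1]
        exact Cfsg.Agent.J2Type.Order.card_centralizer_u F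
    rw [h5, Nat.card_congr topEquiv.toEquiv, hcard] at hc
    norm_num at hc
  by_cases hp2 : p = 2
  · subst hp2
    refine crow_two hna D.M (hone z F.hz) ?_
    have h1 := (centralizer ({z} : Set G)).card_mul_index
    rw [F.cardC, hcard] at h1
    have h2 : (centralizer ({z} : Set G)).index = 315 := by omega
    rw [h2]; norm_num
  have ht : ∀ t : G, t ≠ 1 → t * t = 1 → ∃ H : Subgroup G, H ≠ ⊤ ∧ centralizer {t} ≤ H ∧ pCore p H = ⊥ := by
    intro t ht1 ht2
    have ht : orderOf t = 2 := orderOf_eq_prime (by rw [pow_two, ht2]) ht1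
    refine ⟨centralizer {t}, hone t ht, le_rfl, ?_⟩
    rcases F.cover t ht with h1 | h1
    · exact pCore_conj h1 (pCore_model D.M F.cardC hp2)
    · refine pCore_conj h1 ?_
      obtain ⟨S, hS, hSs, hSn, h60⟩ := exists_sub F
      have hu := Cfsg.Agent.J2Type.Order.card_centralizer_u F
      have e := subgroupOfEquivOfLe hS
      refine pCore_bot_of_sub (S := S.subgroupOf (centralizer ({u} : Set G))) e.isSimpleGroup ?_ ?_
      · exact fun hm => hSn ⟨⟨fun x y => e.symm.injective (by rw [map_mul, map_mul, hm.is_comm.comm])⟩⟩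
      · have h2 := (S.subgroupOf (centralizer ({u} : Set G))).card_mul_index
        rw [Nat.card_congr e.toEquiv, h60, hu] at h2
        have h3 : (S.subgroupOf (centralizer ({u} : Set G))).index = 2 ^ 2 := by omega
        rw [h3]
        intro h4
        exact hp2 ((Nat.prime_dvd_prime_iff_eq hpp Nat.prime_two).1 (hpp.dvd_of_dvd_pow h4))
  rcases (Nat.Prime.dvd_mul hpp).1 hd' with h1 | h1
  · exact absurd ((Nat.prime_dvd_prime_iff_eq hpp Nat.prime_two).1 (hpp.dvd_of_dvd_pow h1)) hp2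
  rcases (Nat.Prime.dvd_mul hpp).1 h1 with h1 | h1
  · obtain rfl := (Nat.prime_dvd_prime_iff_eq hpp (by norm_num)).1 (hpp.dvd_of_dvd_pow h1)
    refine crow_of_even ht ?_
    rintro x hx1 ⟨k, hk⟩
    have h2 := Cfsg.Agent.H379.J2Orders.orders_mem D x
    rw [hk] at h2
    refine even_three F ?_
    rcases k with _ | _ | k
    · exact absurd (orderOf_eq_one_iff.1 hk) hx1
    · simpa using hk
    · exfalso
      have h3 : 3 ^ 2 ∣ 3 ^ (k + 1 + 1) := pow_dvd_pow 3 (by omega)
      simp only [Finset.mem_insert, Finset.mem_singleton] at h2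
      generalize 3 ^ (k + 1 + 1) = n at *
      omega
  rcases (Nat.Prime.dvd_mul hpp).1 h1 with h1 | h1
  · obtain rfl := (Nat.prime_dvd_prime_iff_eq hpp (by norm_num)).1 (hpp.dvd_of_dvd_pow h1)
    refine crow_of_even ht ?_
    rintro x hx1 ⟨k, hk⟩
    have h2 := Cfsg.Agent.H379.J2Orders.orders_mem D x
    rw [hk] at h2
    refine even_five F ?_
    rcases k with _ | _ | k
    · exact absurd (orderOf_eq_one_iff.1 hk) hx1
    · simpa using hk
    · exfalso
      have h3 : 5 ^ 2 ∣ 5 ^ (k + 1 + 1) := pow_dvd_pow 5 (by omega)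
      simp only [Finset.mem_insert, Finset.mem_singleton] at h2
      generalize 5 ^ (k + 1 + 1) = n at *
      omega
  · obtain rfl := (Nat.prime_dvd_prime_iff_eq hpp (by norm_num)).1 h1
    intro C hC c hc
    by_contra hc1
    apply F.nconj
    exact hC.isConj_of_cyclic (inferInstance) (pCore_eq_bot_of_simple hna 7) (by rw [hcard]; norm_num) hc hc1
      (fun d hd hd1 => hC.odd_centralizer ht hd hd1) D.tt D.t_ne D.uu D.u_ne

end Cfsg.Agent.H442.CRowJTwo
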