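import Cfsg.Agent.H162.CC.Tools3
import Cfsg.Agent.H102.AAJtwo

/-!
# Rows `CRow p G`: small tools for the sporadic groups (helper442, S3828)
-/

set_option autoImplicit false

namespace Cfsg.Agent.H442.CRowTools

open Subgroup Cfsg Cfsg.Agent.Lib.Cores Cfsg.Agent.H162.CCR
open Cfsg.Agent.J2Type.Model Cfsg.Agent.J2Type.CStruct
open Cfsg.Agent.H102.AAJtwo

/-! ### `O_p` of some groups -/

/-- a group with a nonabelian simple quotient and a `p'`-kernel -/
theorem pCore_bot_of_onto {H S : Type*} [Group H] [Finite H] [Group S] [Finite S] {p : ℕ} [hp : Fact p.Prime]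
    (hs : IsSimpleGroup S) (hab : ¬ IsMulCommutative S) (f : H →* S) (hf : Function.Surjective f)
    (hk : ¬ p ∣ Nat.card f.ker) : pCore p H = ⊥ := by
  have h1 : (pCore p H).map f ≤ pCore p S :=
    le_pCore (Subgroup.Normal.map inferInstance f hf) ((pCore_isPGroup p).map f)
  rw [pCore_eq_bot_of_simple hab p] at h1
  have h2 : pCore p H ≤ f.ker := by
    intro x hx
    exact (mem_bot.1 (h1 ⟨x, hx, rfl⟩) : f x = 1)
  obtain ⟨n, hn⟩ := (IsPGroup.iff_card).1 (pCore_isPGroup (G := H) p)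
  have h3 : Nat.card (pCore p H) ∣ Nat.card f.ker := card_dvd_of_le h2
  rcases Nat.eq_zero_or_pos n with h0 | h0
  · rw [h0, pow_zero] at hn
    exact card_eq_one.1 hn
  · exfalso
    exact hk ((dvd_pow_self p h0.ne').trans (hn ▸ h3))

/-- a group with a nonabelian simple subgroup of `p'`-index -/
theorem pCore_bot_of_sub {H : Type*} [Group H] [Finite H] {p : ℕ} [hp : Fact p.Prime] {S : Subgroup H}
    (hs : IsSimpleGroup S) (hab : ¬ IsMulCommutative S) (hi : ¬ p ∣ S.index) : pCore p H = ⊥ := by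
  obtain ⟨P, hP⟩ := exists_sylow_le hi
  have h1 : pCore p H ≤ S := by
    refine le_trans ?_ hP
    obtain ⟨Q, hQ⟩ := (pCore_isPGroup (G := H) p).exists_le_sylow
    obtain ⟨g, hg⟩ := MulAction.exists_smul_eq H Q P
    intro x hx
    have h2 : g⁻¹ * x * g⁻¹⁻¹ ∈ pCore p H := (inferInstance : (pCore p H).Normal).conj_mem x hx g⁻¹
    have h3 := hQ h2
    have h4 : g * (g⁻¹ * x * g⁻¹⁻¹) * g⁻¹ ∈ (P : Subgroup H) := by
      rw [← hg, Sylow.coe_subgroup_smul]
      exact Subgroup.smul_mem_pointwise_smul _ (MulAut.conj g) _ h3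
    have e : g * (g⁻¹ * x * g⁻¹⁻¹) * g⁻¹ = x := by group
    rwa [e] at h4
  have h2 : (pCore p H).subgroupOf S ≤ pCore p S := by
    refine le_pCore inferInstance ?_
    exact (pCore_isPGroup (G := H) p).comap_of_injective _ S.subtype_injective
  rw [pCore_eq_bot_of_simple hab p, le_bot_iff, subgroupOf_eq_bot, disjoint_iff, inf_eq_left.2 h1] at h2
  exact h2

/-- `O_p = 1` if `p` does not divide the order -/
theorem pCore_bot_of_card {H : Type*} [Group H] [Finite H] {p : ℕ} [hp : Fact p.Prime] (h : ¬ p ∣ Nat.card H) :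
    pCore p H = ⊥ := by
  obtain ⟨n, hn⟩ := (IsPGroup.iff_card).1 (pCore_isPGroup (G := H) p)
  rcases Nat.eq_zero_or_pos n with h0 | h0
  · rw [h0, pow_zero] at hn
    exact card_eq_one.1 hn
  · exfalso
    exact h ((dvd_pow_self p h0.ne').trans (hn ▸ card_subgroup_dvd_card _))

/-! ### Primes not dividing the order -/

theorem crow_of_card {G : Type*} [Group G] [Finite G] {p : ℕ} [hp : Fact p.Prime] (h : ¬ p ∣ Nat.card G) :
    CRow p G := by
  intro C hC c hc
  obtain ⟨k, hk⟩ := hC.pel c hc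
  rcases Nat.eq_zero_or_pos k with h0 | h0
  · rw [h0, pow_zero] at hk
    exact orderOf_eq_one_iff.1 hk
  · exfalso
    exact h ((dvd_pow_self p h0.ne').trans (hk ▸ orderOf_dvd_natCard c))

/-- elements with centralizers of even order -/
theorem crow_of_even {G : Type*} [Group G] [Finite G] {p : ℕ} [hp : Fact p.Prime]
    (ht : ∀ t : G, t ≠ 1 → t * t = 1 → ∃ H : Subgroup G, H ≠ ⊤ ∧ centralizer {t} ≤ H ∧ pCore p H = ⊥)
    (he : ∀ x : G, x ≠ 1 → (∃ k : ℕ, orderOf x = p ^ k) → 2 ∣ Nat.card (centralizer ({x} : Set G))) : CRow p G := by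
  intro C hC c hc
  by_contra hc1
  have h1 := hC.odd_centralizer ht hc hc1
  exact (Nat.not_even_iff_odd.2 h1) (even_iff_two_dvd.2 (he c hc1 (hC.pel c hc)))

/-! ### `p = 2`: `C(t) = 2^{1+4}_-.A₅` -/

theorem perm_exists : ∀ i j : Fin 5, i ≠ j → ∃ σ : Equiv.Perm (Fin 5), Equiv.Perm.sign σ = 1 ∧ σ i = i ∧ σ j ≠ j := by
  decide +kernel

/-- the abelian normal 2-subgroups of `C(t)` have exponent 2 -/
theorem sq_of_abelian {C : Type*} [Group C] [Finite C] {Q : Subgroup C} {z : C} {v : Fin 5 → C} {ρ : C →* SP}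
    (M : IsModel Q z v ρ) {N : Subgroup C} (h2 : IsPGroup 2 N) (hn : ∀ c, ∀ n ∈ N, c * n * c⁻¹ ∈ N)
    (hab : ∀ x ∈ N, ∀ y ∈ N, x * y = y * x) {x : C} (hx : x ∈ N) : x * x = 1 := by
  have hQ := Cfsg.Agent.KFacts.J2.Facts.normal_le M h2 hn
  rcases M.cover x (hQ hx) with ⟨a, rfl⟩ | ⟨a, i, rfl⟩ | ⟨a, i, j, hij, rfl⟩
  · exact zp_self z M.z_sq a
  · calc zp z a * v i * (zp z a * v i) = zp z a * (v i * zp z a) * v i := by group
      _ = zp z a * (zp z a * v i) * v i := by rw [zp_comm z M.z_comm a]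
      _ = (zp z a * zp z a) * (v i * v i) := by group
      _ = 1 := by rw [zp_self z M.z_sq, M.v_sq, one_mul]
  · exfalso
    obtain ⟨σ, hσ, hi, hj⟩ := perm_exists i j hij.ne
    obtain ⟨c, hc⟩ := (M.range ⟨σ, fun _ => 0⟩).2 ⟨hσ, by simp⟩
    have hcv : ∀ l, c * v l * c⁻¹ = v (σ l) := by
      intro l
      rw [M.conj, hc]
      show zp z 0 * v (σ l) = v (σ l)
      rw [zp_zero, one_mul]
    have h1 := hn c _ hx
    have e1 : c * (zp z a * (v i * v j)) * c⁻¹ = zp z a * (v i * v (σ j)) := by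
      calc c * (zp z a * (v i * v j)) * c⁻¹ = (c * zp z a) * (v i * v j) * c⁻¹ := by group
        _ = (zp z a * c) * (v i * v j) * c⁻¹ := by rw [zp_comm z M.z_comm a]
        _ = zp z a * ((c * v i * c⁻¹) * (c * v j * c⁻¹)) := by group
        _ = zp z a * (v i * v (σ j)) := by rw [hcv, hcv, hi]
    rw [e1] at h1
    have h3 := hab _ hx _ h1
    set k := σ j with hk
    have hik : i ≠ k := by
      intro h
      rw [← hi, hk] at h
      exact hij.ne (σ.injective h)
    have key : ∀ {l m : Fin 5}, i ≠ l → i ≠ m → (v i * v l) * (v i * v m) = z * (v l * v m) := by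
      intro l m hl hm
      calc (v i * v l) * (v i * v m) = (z * (v l * v i)) * (v i * v m) := by rw [M.v_anti i l hl]
        _ = z * (v l * (v i * v i) * v m) := by group
        _ = z * (v l * v m) := by rw [M.v_sq, mul_one]
    have red : ∀ {x y : C}, zp z a * x * (zp z a * y) = x * y := by
      intro x y
      calc zp z a * x * (zp z a * y) = zp z a * (x * zp z a) * y := by group
        _ = zp z a * (zp z a * x) * y := by rw [zp_comm z M.z_comm a]
        _ = (zp z a * zp z a) * (x * y) := by group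
        _ = x * y := by rw [zp_self z M.z_sq, one_mul]
    rw [red, red, key hij.ne hik, key hik hij.ne, M.v_anti j k (Ne.symm hj)] at h3
    have h4 : z * (v k * v j) = v k * v j := mul_left_cancel h3
    exact M.z_ne (mul_eq_right.1 h4)

/-- **the row for `p = 2`** -/
theorem crow_two {G : Type*} [Group G] [Finite G] [IsSimpleGroup G] (hna : ¬ IsMulCommutative G) {t : G}
    {Q : Subgroup (centralizer ({t} : Set G))} {z : centralizer ({t} : Set G)}
    {v : Fin 5 → centralizer ({t} : Set G)} {ρ : centralizer ({t} : Set G) →* SP} (M : IsModel Q z v ρ)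
    (hne : centralizer ({t} : Set G) ≠ ⊤) (hi : ¬ 2 ∣ (centralizer ({t} : Set G)).index) [Fact (Nat.Prime 2)] :
    CRow 2 G := by
  intro C hC
  refine hC.eq_one_of_two_abelian (pCore_eq_bot_of_simple hna 2) hne hi ?_
  intro A hA hAN hA2 hab x hx
  have h1 : IsPGroup 2 (A.subgroupOf (centralizer ({t} : Set G))) :=
    hA2.comap_of_injective _ (centralizer ({t} : Set G)).subtype_injective
  have h2 := sq_of_abelian M (N := A.subgroupOf (centralizer ({t} : Set G))) h1 (by
    intro c n hn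
    rw [mem_subgroupOf] at hn ⊢
    have h3 := hAN c.2
    exact (mem_normalizer_iff.1 h3 n).1 hn) (by
    intro x hx y hy
    exact Subtype.ext (hab _ hx _ hy)) (x := ⟨x, hA hx⟩) hx
  exact congrArg Subtype.val h2

/-- `O_p(C(t)) = 1` for odd `p` -/
theorem pCore_model {C : Type*} [Group C] [Finite C] {Q : Subgroup C} {z : C} {v : Fin 5 → C} {ρ : C →* SP}
    (M : IsModel Q z v ρ) (hc : Nat.card C = 1920) {p : ℕ} [hp : Fact p.Prime] (hp2 : p ≠ 2) : pCore p C = ⊥ := by
  obtain ⟨f, hf⟩ := exists_onto M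
  refine pCore_bot_of_onto simple_A5 not_comm_A5 f hf ?_
  have h1 := card_eq_card_quotient_mul_card_subgroup f.ker
  rw [Nat.card_congr (QuotientGroup.quotientKerEquivOfSurjective f hf).toEquiv, card_A5, hc] at h1
  have h2 : Nat.card f.ker = 2 ^ 5 := by omega
  rw [h2]
  intro h3
  exact hp2 ((Nat.prime_dvd_prime_iff_eq hp.out Nat.prime_two).1 (hp.out.dvd_of_dvd_pow h3))

end Cfsg.Agent.H442.CRowTools
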